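import Mathlib
import Cfsg.Agent.Lib.Helper92.SUG.Defs
import Cfsg.Agent.Lib.Helper40.SUG.Psu3
import Cfsg.Agent.S0822
import Cfsg.Agent.S2411

/-!
# Project SUG (S2412, helper92 design), the small packages [N3], [QUOT], [N42]
-/

set_option autoImplicit false

namespace Cfsg.Agent.Lib.Helper12.SUG

open Cfsg.Agent.Lib.Helper92.SUG

universe u

/-- **[N3]** `PSU_3(q)`, `q ≥ 3` (from S2283, through helper40's adapter). -/
theorem pkgN3 : PkgN3.{u} := by
  intro F _ _ q hF hq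
  exact Cfsg.Agent.Lib.Helper40.SUG.psu3_two_gen q hq hF

/-- **[QUOT]** two generators of `SU` give two generators of `PSU`. -/
theorem pkgQuot : PkgQuot.{u} := by
  intro F _ _ q n h
  obtain ⟨a, b, hab⟩ := h
  exact Cfsg.Agent.Lib.Helper40.SUG.psu_of_su a b hab

/-- **[N42]** `PSU_4(2)` (from S0822 and S2411). -/
theorem pkgN42 : PkgN42.{u} := by
  intro F _ _ hF
  obtain ⟨e⟩ := Cfsg.Agent.S0822.result (F := F) (K := ZMod 3) (by rw [hF]; norm_num)
    (by rw [ZMod.card])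
  obtain ⟨a, b, hab⟩ := Cfsg.Agent.S2411.result (F := ZMod 3) 2 (le_refl 2)
    (fun _ => by rw [ZMod.card]; norm_num)
  refine ⟨e.symm a, e.symm b, ?_⟩
  have h1 := MonoidHom.map_closure (e.symm.toMonoidHom) ({a, b} : Set (Cfsg.PSp 2 (ZMod 3)))
  rw [hab, Subgroup.map_top_of_surjective _ e.symm.surjective] at h1
  rw [h1, Set.image_pair]
  rfl

end Cfsg.Agent.Lib.Helper12.SUG
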